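import Cfsg.Agent.H550.RX.SLOdd

/-!
# The kernel of the action on the frame (helper550, box R3 of TEAM RV, exceptional groups)

`odd_mem_TT` : `H ≤ D.group k` finite of order prime to `3 p`, containing the toral elements `h_d(i)`, `d ∈ L1`, and
`h_s(i)`, `s` in the frame `FF`, all elements of `H` commute with all `h_s(-1)`, `s ∈ FF`: then the elements of odd order of
`H` lie in the torus.
-/

set_option autoImplicit false
set_option linter.unusedSectionVars false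

namespace Cfsg.Agent.H550.RX

open CoxeterSystem Cfsg Cfsg.Lie Cfsg.Lie.ChevalleyDatum
open Cfsg.Agent.ChevalleyStructure Cfsg.Agent.ChevalleyStructure.Elts Cfsg.Agent.ChevalleyStructure.CoxeterGeom
  Cfsg.Agent.ChevalleyStructure.CoxeterGeomTypes Cfsg.Agent.ChevalleyStructure.NPerm
open Cfsg.Agent.Tits.Roots Cfsg.Agent.Tits.Core Cfsg.Agent.Nodes Cfsg.Agent.Nodes.Reps Cfsg.Agent.Nodes.BNOf
  Cfsg.Agent.Nodes.RGDChev Cfsg.Agent.Nodes.Bruhat Cfsg.Agent.Nodes.NormalForm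
open Cfsg.Agent.KFacts.RgdField Cfsg.Agent.KFacts.RgdChevCoord
open Cfsg.Agent.BpExc Cfsg.Agent.BpExc.TorCent Cfsg.Agent.BpExc.TorChev Cfsg.Agent.BpExc.Tow
  Cfsg.Agent.BpExc.TowChev Cfsg.Agent.BpExc.Fr Cfsg.Agent.BpExc.Pair Cfsg.Agent.BpExc.LangFr Cfsg.Agent.GpExc.Field
  Cfsg.Agent.BpExc.TorAll
open Cfsg.Agent.H469.Exc Cfsg.Agent.H469.Exc.SigFr
open Cfsg.Agent.Nodes.RGDFoldSL
open Cfsg.Agent.ChevalleyStructure.SL2Hom (up lo mem_closure_SL2)
open Cfsg.Agent.H167.EX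

universe u v

variable {D : ChevalleyDatum} {l : ℕ} {M : CoxeterMatrix (Fin l)} (hp : IsType D l M) {k : Type u} [Field k]

/-- an element of odd order which commutes with the `h_s(i)`, `s ∈ FF`, is toral -/
theorem mem_TT_of_four (h2 : (2 : k) ≠ 0) (p : ℕ) [Fact p.Prime] [CharP k p] (hk : LocFin k) {FF : List ℕ}
    (hFF : ∀ s ∈ FF, s < D.nroots) (hfour : ∀ b < D.nroots, ∃ s ∈ FF, HMatDiagAll.expo D s b % 4 ≠ 0)
    {i : k} (hi : i * i = -1) {v : ↥(D.group k)} (hm : Odd (orderOf v))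
    (hv : ∀ s ∈ FF, xd hp i s * v = v * xd hp i s) : v ∈ TT D k := by
  have hi0 : i ≠ 0 := by rintro rfl; rw [mul_zero] at hi; exact one_ne_zero (neg_eq_zero.1 hi.symm)
  obtain ⟨j, hj⟩ := pow_mem_set hp hk p (S := {x | ∃ s ∈ FF, x = xd hp i s}) (by
    rintro _ ⟨d, -, rfl⟩
    exact xd_mem hp hi0 d) Nat.prime_two (by
    rintro _ ⟨d, -, rfl⟩
    exact ⟨2, xd_four hp hi d⟩) (g := v) (by
    rintro _ ⟨d, hd, rfl⟩
    exact (hv d hd).symm)
  refine mem_of_pow hm (pow_orderOf_eq_one v) ((sup_le (RGD.Sup_le fun a ha => ?_) le_rfl : _ ≤ TT D k) hj)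
  exfalso
  obtain ⟨b, hb, rfl⟩ := (isRoot_iff hp M.toCoxeterSystem a).1 ha.1
  obtain ⟨s, hs, hne⟩ := hfour b hb
  have h3 := ha.2 _ ⟨s, hs, rfl⟩
  rw [ch_xd hp p hk hi0 (hFF s hs) hb] at h3
  have h4 := mod_four h2 hi (e := HMatDiagAll.expo D s b) (f := 0) (by rw [h3, zpow_zero])
  exact hne (by simpa using h4)

section one

variable {s : ℕ} (hs : s < D.nroots)

/-- the odd part of `H ∩ L_s` -/
theorem exists_part [IsAlgClosed k] (h2 : (2 : k) ≠ 0) (p : ℕ) [Fact p.Prime] [CharP k p] (hk : LocFin k)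
    (he : ∃ r < D.nroots, HMatDiagAll.expo D s r = 1) (H : Subgroup ↥(D.group k)) [Finite H]
    (h3 : ¬ 3 ∣ Nat.card H) (hpH : ¬ p ∣ Nat.card H) :
    ∃ N : Subgroup (SL k), (∀ x, x ∈ N ↔ ph hp k hs x ∈ H ∧ Odd (orderOf x)) ∧ (∀ a ∈ N, ∀ b ∈ N, a * b = b * a) ∧
      Odd (Nat.card N) ∧ (Finite (H.comap (ph hp k hs))) ∧ (∀ x, ph hp k hs x ∈ H → ∃ j : ℕ, x ^ 2 ^ j ∈ N) ∧
      Finite N := by
  have hinj : Function.Injective (ph hp k hs) := by
    rw [injective_iff_map_eq_one]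
    exact fun A hA => ph_inj hp hs h2 p hk he hA
  set Γ := H.comap (ph hp k hs) with hΓ
  have hfin : Finite Γ := by
    refine Finite.of_injective (fun x : Γ => (⟨ph hp k hs x, x.2⟩ : H)) fun a b h => ?_
    exact Subtype.ext (hinj (congrArg Subtype.val h))
  have hdvd : Nat.card Γ ∣ Nat.card H := Subgroup.card_comap_dvd_of_injective H _ hinj
  have hp' : Nat.Prime p := Fact.out
  obtain ⟨N, hNle, hN, hab, hodd, hpow⟩ := exists_odd_part (k := k) h2 hfin (fun h => h3 (h.trans hdvd)) (by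
    intro h
    exact hpH (((CharP.cast_eq_zero_iff k p _).1 h).trans hdvd))
  refine ⟨N, hN, hab, hodd, hfin, hpow, ?_⟩
  exact Finite.of_injective (fun x : N => (⟨x, hNle x.2⟩ : Γ)) fun a b h => Subtype.ext
    (congrArg (fun z : Γ => (z : SL k)) h)

theorem xs_comm_of_RR {A B : SL k} {y : ↥(D.group k)} (h : (A, y) ∈ RR hp k hs) (hAB : A * B = B * A) :
    ph hp k hs B * y = y * ph hp k hs B := by
  have h3 := Subgroup.mem_centralizer_iff.1 ((mem_RR hp hs).1 h) _ ⟨B, rfl⟩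
  have e : y = ph hp k hs A * ((ph hp k hs A)⁻¹ * y) := by group
  calc ph hp k hs B * y = ph hp k hs B * ph hp k hs A * ((ph hp k hs A)⁻¹ * y) := by group
    _ = ph hp k hs A * (ph hp k hs B * ((ph hp k hs A)⁻¹ * y)) := by rw [← map_mul, ← hAB, map_mul, mul_assoc]
    _ = ph hp k hs A * (((ph hp k hs A)⁻¹ * y) * ph hp k hs B) := by rw [h3]
    _ = y * ph hp k hs B := by group

theorem conj_of_RR {A B : SL k} {y : ↥(D.group k)} (h : (A, y) ∈ RR hp k hs) :
    y * ph hp k hs B * y⁻¹ = ph hp k hs (A * B * A⁻¹) := by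
  have h3 := Subgroup.mem_centralizer_iff.1 ((mem_RR hp hs).1 h) _ ⟨B, rfl⟩
  have e : y = ph hp k hs A * ((ph hp k hs A)⁻¹ * y) := by group
  calc y * ph hp k hs B * y⁻¹ = ph hp k hs A * (((ph hp k hs A)⁻¹ * y) * ph hp k hs B) * y⁻¹ := by group
    _ = ph hp k hs A * (ph hp k hs B * ((ph hp k hs A)⁻¹ * y)) * y⁻¹ := by rw [h3]
    _ = ph hp k hs (A * B * A⁻¹) := by rw [map_mul, map_mul, map_inv]; group

end one

/-- **The elements of odd order of the kernel are toral.** -/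
theorem odd_mem_TT [IsAlgClosed k] (h2 : (2 : k) ≠ 0) (p : ℕ) [Fact p.Prime] [CharP k p] (hk : LocFin k) (hA : HAlg p k)
    (hc : cnt D l = true) {L1 : List ℕ} {g : ℕ → ℕ} (K : Chk D L1 g) (hL1 : ∀ d ∈ L1, d < D.nroots)
    (htwo : ∀ d ∈ L1, two D d = true) {i : k} (hi : i * i = -1) {FF : List ℕ} (hFF : ∀ s ∈ FF, s < D.nroots)
    (hgood : ∀ s ∈ FF, good D s = true) (htA : ∀ s ∈ FF, H808.RV.tabA D s = true)
    (htB : ∀ s ∈ FF, H808.RV.tabB D s = true)
    (hfour : ∀ b < D.nroots, ∃ s ∈ FF, HMatDiagAll.expo D s b % 4 ≠ 0)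
    (H : Subgroup ↥(D.group k)) [Finite H] (h3 : ¬ 3 ∣ Nat.card H) (hpH : ¬ p ∣ Nat.card H)
    (hx : ∀ d ∈ L1, xd hp i d ∈ H) (hxs : ∀ s ∈ FF, xd hp i s ∈ H)
    (hz : ∀ x ∈ H, ∀ s (hs : s ∈ FF), x * zz hp (k := k) (hFF s hs) = zz hp (hFF s hs) * x) {y : ↥(D.group k)}
    (hy : y ∈ H) (hodd : Odd (orderOf y)) : y ∈ TT D k := by
  have hi0 : i ≠ 0 := by rintro rfl; rw [mul_zero] at hi; exact one_ne_zero (neg_eq_zero.1 hi.symm)
  refine mem_TT_of_four hp h2 p hk hFF hfour hi hodd fun s hsF => ?_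
  have hs := hFF s hsF
  have he := (good_spec (hgood s hsF)).2.2.2
  have hinj : Function.Injective (ph hp k hs) := by
    rw [injective_iff_map_eq_one]
    exact fun A hA => ph_inj hp hs h2 p hk he hA
  obtain ⟨A, hAo, hAy⟩ := exists_odd hp hs h2 p hk he
    (mem_LC_of_comm hp hs h2 p hk (hgood s hsF) (hz y hy s hsF) hodd (pow_orderOf_eq_one y)) hodd (pow_orderOf_eq_one y)
  obtain ⟨N, hN, hNab, hNodd, hΓfin, hNpow, hNfin⟩ := exists_part hp hs h2 p hk he H h3 hpH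
  have hxsH : ph hp k hs (hS i) ∈ H := by
    have := hxs s hsF
    rwa [xd_lt hp hs] at this
  rw [xd_lt hp hs]
  refine xs_comm_of_RR hp hs hAy ?_
  -- `A` normalises `Γ` and `N`
  have hAΓ : ∀ B, ph hp k hs B ∈ H → ph hp k hs (A * B * A⁻¹) ∈ H := by
    intro B hB
    rw [← conj_of_RR hp hs hAy]
    exact mul_mem (mul_mem hy hB) (inv_mem hy)
  have hordc : ∀ B : SL k, orderOf (A * B * A⁻¹) = orderOf B := fun B => by
    have := orderOf_injective (MulAut.conj A).toMonoidHom (MulAut.conj A).injective B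
    simpa using this
  by_cases hN1 : ∀ B ∈ N, B = 1
  · -- `Γ` is a 2-group
    have hΓ2 : IsPGroup 2 (H.comap (ph hp k hs)) := by
      rintro ⟨x, hx'⟩
      obtain ⟨j, hj⟩ := hNpow x hx'
      exact ⟨j, Subtype.ext (hN1 _ hj)⟩
    refine comm_two_gen h2 _ hΓfin hΓ2 hodd ?_ hAo (fun B hB => hAΓ B hB) _ hxsH
    intro h
    apply h3
    refine h.trans ?_
    have h5 : orderOf (⟨y, hy⟩ : H) ∣ Nat.card H := orderOf_dvd_natCard _
    rwa [Subgroup.orderOf_mk] at h5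
  · push Not at hN1
    obtain ⟨B, hB, hB1⟩ := hN1
    -- the odd part is toral
    have hNT : ph hp k hs B ∈ TT D k := by
      let N' : Subgroup ↥H := (N.map (ph hp k hs)).subgroupOf H
      have hle : N.map (ph hp k hs) ≤ H := by
        rintro _ ⟨x, hx, rfl⟩
        exact ((hN x).1 hx).1
      have hcd : Nat.card N' = Nat.card N := by
        rw [Nat.card_congr (Subgroup.subgroupOfEquivOfLe hle).toEquiv]
        exact (Nat.card_congr (N.equivMapOfInjective (ph hp k hs) hinj).toEquiv).symm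
      have hN'n : N'.Normal := by
        refine ⟨?_⟩
        rintro ⟨_, hnH⟩ ⟨x, hx, rfl⟩ ⟨h, hh⟩
        obtain ⟨B', hB'⟩ := cent_norm_lf hp hs hk h2 (htA s hsF) (htB s hsF) (hz h hh s hsF) _ ⟨x, rfl⟩
        refine ⟨B', (hN B').2 ⟨?_, ?_⟩, hB'⟩
        · rw [hB']
          exact mul_mem (mul_mem hh hnH) (inv_mem hh)
        · have h5 : orderOf B' = orderOf x := by
            rw [← orderOf_injective (ph hp k hs) hinj B', hB', ← orderOf_injective (ph hp k hs) hinj x]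
            have := orderOf_injective (MulAut.conj h).toMonoidHom (MulAut.conj h).injective (ph hp k hs x)
            simpa using this
          rw [h5]
          exact ((hN x).1 hx).2
      have hcomm : ∀ a b : N', a * b = b * a := by
        rintro ⟨a, ha⟩ ⟨b, hb⟩
        obtain ⟨x, hx, hxa⟩ := ha
        obtain ⟨x', hx', hxb⟩ := hb
        apply Subtype.ext
        apply Subtype.ext
        show (a : ↥(D.group k)) * (b : ↥(D.group k)) = (b : ↥(D.group k)) * (a : ↥(D.group k))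
        have e1 : ph hp k hs x = (a : ↥(D.group k)) := hxa
        have e2 : ph hp k hs x' = (b : ↥(D.group k)) := hxb
        rw [← e1, ← e2, ← map_mul, hNab x hx x' hx', map_mul]
      have hsol : Group.IsSolvable N' := Group.isSolvable_of_comm hcomm
      exact odd_le hp h2 p hk hA hc K hL1 htwo hi H h3 hpH hx N' hN'n (by rw [hcd]; exact hNodd) hsol
        ⟨ph hp k hs B, hle ⟨B, hB, rfl⟩⟩ ⟨B, hB, rfl⟩
    have hBo := ((hN B).1 hB).2
    have hBc : ¬ ∀ P : SL k, B * P = P * B := not_central hBo (pow_orderOf_eq_one B) hB1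
    have hBH := ((hN B).1 hB).1
    have hp' : Nat.Prime p := Fact.out
    have hBn : (orderOf B : k) ≠ 0 := by
      intro h
      have h5 := (CharP.cast_eq_zero_iff k p _).1 h
      apply hpH
      refine h5.trans ?_
      have h6 : orderOf (⟨ph hp k hs B, hBH⟩ : H) ∣ Nat.card H := orderOf_dvd_natCard _
      rwa [Subgroup.orderOf_mk, orderOf_injective (ph hp k hs) hinj B] at h6
    have hABN : A * B * A⁻¹ ∈ N := (hN _).2 ⟨hAΓ B hBH, by rw [hordc]; exact hBo⟩
    have h5 : A * B = B * A := comm_of_conj h2 hBc hBn (pow_orderOf_eq_one B) hodd hAo (hNab _ hABN _ hB)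
    have h6 : hS i * B = B * hS i := by
      apply hinj
      rw [map_mul, map_mul]
      exact TT_comm hp _ (ph_hS_mem hp hs hi0) _ hNT
    exact cent_abel h5 h6 hBc

end Cfsg.Agent.H550.RX
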